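import Mathlib.GroupTheory.Transfer
import Cfsg.Prelude.Def_Transfer

/-! At least half of the elements have class size divisible by `p` when `N(P) ≠ C(P)`. -/

set_option autoImplicit false

namespace Cfsg.Lib.ClsHalf

open Subgroup Finset

variable {G : Type*} [Group G] [Finite G] {p : ℕ}

/-- An element of class size prime to `p` centralises a Sylow `p`-subgroup. -/
theorem exists_sylow [hp : Fact p.Prime] {x : G} (h : ¬ p ∣ (centralizer ({x} : Set G)).index) :
    ∃ Q : Sylow p G, x ∈ centralizer ((Q : Subgroup G) : Set G) := by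
  obtain ⟨R⟩ : Nonempty (Sylow p (centralizer ({x} : Set G))) := inferInstance
  refine ⟨(R.isPGroup'.map (Subgroup.subtype _)).toSylow fun k => ?_, ?_⟩
  · rw [index_map_subtype] at k
    exact (hp.out.dvd_mul.1 k).elim R.not_dvd_index h
  · rintro _ ⟨g, -, rfl⟩
    exact mem_centralizer_singleton_iff.1 g.2

open Classical in
theorem half [Fintype G] [hp : Fact p.Prime] (h : ¬ HasNormalPComplement p G) :
    Fintype.card G ≤ 2 * #{x : G | p ∣ (centralizer ({x} : Set G)).index} := by
  have := Fintype.ofFinite (Sylow p G)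
  have k : ∀ Q : Sylow p G, 2 * Nat.card (centralizer ((Q : Subgroup G) : Set G)) *
      Nat.card (Sylow p G) ≤ Nat.card G := fun Q => by
    rw [Q.card_eq_index_normalizer, ← (normalizer ((Q : Subgroup G) : Set G)).card_mul_index]
    refine Nat.mul_le_mul_right _ ?_
    have l := centralizer_le_normalizer ((Q : Subgroup G) : Set G)
    obtain ⟨c, hc⟩ := card_dvd_of_le l
    have n : c ≠ 1 := fun e => h ⟨Q, _, inferInstance, MonoidHom.ker_transferSylow_isComplement' Q
      (eq_of_le_of_card_ge l (by rw [hc, e, mul_one])).ge⟩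
    have n0 : c ≠ 0 := fun e => by
      rw [e, mul_zero] at hc
      exact Nat.card_pos.ne' hc
    rw [hc, mul_comm]
    exact Nat.mul_le_mul_left _ (by omega)
  have s : #{x : G | ¬ p ∣ (centralizer ({x} : Set G)).index} ≤
      ∑ Q : Sylow p G, Nat.card (centralizer ((Q : Subgroup G) : Set G)) := by
    refine (card_le_card (t := univ.biUnion fun Q : Sylow p G =>
      {x : G | x ∈ centralizer ((Q : Subgroup G) : Set G)}) fun x hx => ?_).trans
      (card_biUnion_le.trans (sum_le_sum fun Q _ => ?_))
    · obtain ⟨Q, hQ⟩ := exists_sylow (mem_filter.1 hx).2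
      exact mem_biUnion.2 ⟨Q, mem_univ _, mem_filter.2 ⟨mem_univ _, hQ⟩⟩
    · rw [Nat.card_eq_fintype_card, Fintype.card_subtype]
  have s2 := sum_le_sum fun Q (_ : Q ∈ univ) => k Q
  rw [← sum_mul, ← mul_sum, sum_const, card_univ, smul_eq_mul, ← Nat.card_eq_fintype_card,
    mul_comm _ (Nat.card G)] at s2
  have s3 := Nat.le_of_mul_le_mul_right s2 Nat.card_pos
  have s4 := card_filter_add_card_filter_not (s := (univ : Finset G))
    fun x => p ∣ (centralizer ({x} : Set G)).index
  rw [card_univ] at s4
  rw [Nat.card_eq_fintype_card] at s3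
  omega

open Classical in
/-- A set of primes without normal complement is smaller than twice the bound. -/
theorem card_lt {σ : ℕ} (hσ : ∀ x : G, ((centralizer ({x} : Set G)).index).primeFactors.card ≤ σ)
    (s0 : σ ≠ 0) {T : Finset ℕ} (hT : ∀ p ∈ T, p.Prime ∧ ¬ HasNormalPComplement p G) :
    #T < 2 * σ := by
  have := Fintype.ofFinite G
  have a : #T * Fintype.card G ≤ 2 * ∑ p ∈ T, #{x : G | p ∣ (centralizer ({x} : Set G)).index} := by
    rw [mul_sum, ← smul_eq_mul, ← sum_const]
    exact sum_le_sum fun p hp => have := Fact.mk (hT p hp).1; half (hT p hp).2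
  have b : ∑ p ∈ T, #{x : G | p ∣ (centralizer ({x} : Set G)).index} < ∑ _x : G, σ := by
    simp_rw [card_filter]
    rw [sum_comm]
    simp_rw [← card_filter]
    refine sum_lt_sum (fun x _ => (card_le_card fun q hq => ?_).trans (hσ x)) ⟨1, mem_univ _, ?_⟩
    · exact Nat.mem_primeFactors.2 ⟨(hT q (mem_filter.1 hq).1).1, (mem_filter.1 hq).2,
        index_ne_zero_of_finite⟩
    · rw [filter_false_of_mem fun q hq => ?_]
      · exact Nat.pos_of_ne_zero s0
      · rw [index_eq_one.2 (eq_top_iff.2 fun g _ => mem_centralizer_singleton_iff.2 (by simp))]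
        exact (hT q hq).1.not_dvd_one
  rw [sum_const, card_univ, smul_eq_mul] at b
  refine Nat.lt_of_mul_lt_mul_right (a := Fintype.card G) (a.trans_lt ?_)
  rw [mul_assoc, mul_comm σ]
  omega

end Cfsg.Lib.ClsHalf
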